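import Cfsg.Agent.H85.Ore.Phi
import Cfsg.Agent.H224.Ore.Zeta

/-!
The weights of the roots outside the blocks `A_7` of `E_8` and `A_6` of `E_7` (S2443, S4171).

`wt8`, `wt7` : the exponents `∑ a ≥ b, ⟨r, α_{j a}^∨⟩` take two consecutive values; `ne8`, `ne7` : the products of the
eigenvalues are not one.
-/

set_option autoImplicit false
set_option linter.unusedSectionVars false

namespace Cfsg.Agent.H224.Ore.Tab

open Cfsg.Lie Cfsg.Agent.ChevalleyStructure.RootVec Cfsg.Agent.Nodes.RGDChev Cfsg.Agent.H85.Ore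
open Cfsg.Agent.H224.Ore.Zeta

/-- the exponents of the eigenvalues -/
def ex {m : ℕ} (c : Fin m → ℤ) (b : Fin (m + 1)) : ℤ := ∑ a : Fin m, if b ≤ a.castSucc then c a else 0

/-- two consecutive values -/
def Two {n : ℕ} (e : Fin n → ℤ) : Prop :=
  ((∀ b, e b = 0 ∨ e b = 1) ∧ (∃ b, e b = 0) ∧ ∃ b, e b = 1) ∨
    ((∀ b, e b = -1 ∨ e b = 0) ∧ (∃ b, e b = -1) ∧ ∃ b, e b = 0)

instance {n : ℕ} (e : Fin n → ℤ) : Decidable (Two e) := by unfold Two; infer_instance

/-- the nodes of the block of `E_8` -/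
def j8 : Fin 7 → Fin 8 := ![0, 2, 3, 4, 5, 6, 7]

/-- the nodes of the block of `E_7` -/
def j7 : Fin 6 → Fin 7 := ![0, 2, 3, 4, 5, 6]

theorem wt8 : ∀ r < chevE8.nroots, (∃ k, k ∉ J8 ∧ vec chevE8 8 r k ≠ 0) → Two (ex fun a => chevE8.cartan (j8 a) r) := by
  unfold ex
  decide +kernel

theorem wt7 : ∀ r < chevE7.nroots, (∃ k, k ∉ J7 ∧ vec chevE7 7 r k ≠ 0) → Two (ex fun a => chevE7.cartan (j7 a) r) := by
  unfold ex
  decide +kernel

theorem simple8 : ∀ a : Fin 7, r8 a.castSucc a.succ = chevE8.simple (j8 a) := by decide +kernel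

theorem simple7 : ∀ a : Fin 6, r7 a.castSucc a.succ = chevE7.simple (j7 a) := by decide +kernel

theorem prod_zpow₀ {K ι : Type*} [Field K] {x : K} (hx : x ≠ 0) (s : Finset ι) (f : ι → ℤ) :
    ∏ i ∈ s, x ^ f i = x ^ ∑ i ∈ s, f i := by
  classical
  induction s using Finset.induction_on with
  | empty => simp
  | insert a s ha ih => rw [Finset.prod_insert ha, Finset.sum_insert ha, zpow_add₀ hx, ih]

theorem prod_ex {K : Type*} [Field K] {m : ℕ} (lam : Fin (m + 1) → K) (h0 : ∀ a, lam a ≠ 0) (c : Fin m → ℤ) :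
    ∏ a : Fin m, (∏ b ∈ Finset.univ.filter (fun b : Fin (m + 1) => b ≤ a.castSucc), lam b) ^ c a =
      ∏ b, lam b ^ ex c b := by
  classical
  have h1 : ∀ b, lam b ^ ex c b = ∏ a : Fin m, if b ≤ a.castSucc then lam b ^ c a else 1 := by
    intro b
    unfold ex
    rw [← prod_zpow₀ (h0 b)]
    refine Finset.prod_congr rfl fun a _ => ?_
    split_ifs
    · rfl
    · rw [zpow_zero]
  rw [Finset.prod_congr rfl fun b _ => h1 b, Finset.prod_comm]
  refine Finset.prod_congr rfl fun a _ => ?_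
  rw [Finset.prod_filter, ← Finset.prod_zpow]
  refine Finset.prod_congr rfl fun b _ => ?_
  split_ifs
  · rfl
  · rw [one_zpow]

theorem Two.ne {K K' : Type*} [Field K] [Field K'] {i : K →+* K'} {m : ℕ} {ν : K} {p : Polynomial K}
    {lam : Fin (m + 1) → K'} (H : Zet i m ν p lam) {e : Fin (m + 1) → ℤ} (h : Two e) : ∏ b, lam b ^ e b ≠ 1 := by
  rcases h with ⟨h1, h2, h3⟩ | ⟨h1, h2, h3⟩
  · exact H.zprod e 0 (by simpa using h1) h2 (by simpa using h3)
  · exact H.zprod e (-1) (by simpa using h1) h2 (by simpa using h3)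

/-- **The product of the eigenvalues.** -/
theorem ne_one {K K' : Type*} [Field K] [Field K'] {i : K →+* K'} {m : ℕ} {ν : K} {p : Polynomial K}
    {lam : Fin (m + 1) → K'} (H : Zet i m ν p lam) {c : Fin m → ℤ} (h : Two (ex c)) :
    ∏ a : Fin m, (∏ b ∈ Finset.univ.filter (fun b : Fin (m + 1) => b ≤ a.castSucc), lam b) ^ c a ≠ 1 := by
  rw [prod_ex lam H.ne0]
  exact Two.ne H h

end Cfsg.Agent.H224.Ore.Tab
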