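import Cfsg.Agent.H482.Ore.Block
import Cfsg.Agent.H224.Ore.Tab
import Cfsg.Agent.H85.Ore.Blk
import Cfsg.Agent.H150.MF.Big

/-!
# `E₇(q)`, `q ≥ 3`: every element is a commutator (S2443), one class of the block `A₆` (S4171)

* `nf_all` : no fixed points for all conjugates of an element with characteristic polynomial `(X - ν) p` (any datum);
* `exists_oneClass7` : the block element of `E₇(K)`, `|K| ≥ 3`;
* `allC_E7` : `AllC (chevE7.group K)`.
-/

set_option autoImplicit false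
set_option linter.unusedSectionVars false

namespace Cfsg.Agent.H224.Ore.ESeven

open CoxeterSystem Cfsg.Agent.ChevalleyStructure.CoxeterGeom Cfsg.Agent.Tits.Roots Cfsg.Agent.Tits.Core
  Cfsg.Agent.Nodes.Reps Cfsg.Agent.Nodes.BNOf Cfsg.Agent.Nodes.RGDLib Cfsg.Agent.Nodes.Bruhat
  Cfsg.Agent.Nodes.OppDec Cfsg.Agent.Nodes.LeviDec Cfsg.Agent.Nodes.KindChev Cfsg.Agent.Nodes.ChevCls
  Cfsg.Agent.OddHalf.NI.Mult Cfsg.Agent.OddHalf.NI.ModelChev
open Cfsg.Lie Cfsg.Agent.ChevalleyStructure Cfsg.Agent.ChevalleyStructure.Elts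
  Cfsg.Agent.ChevalleyStructure.RootVec Cfsg.Agent.ChevalleyStructure.NPerm
  Cfsg.Agent.ChevalleyStructure.CoxeterGeomTypes Cfsg.Agent.Nodes.RGDChev Cfsg.Agent.KFacts.RgdChevCoord
open Cfsg.Agent.H162.GaussSL Cfsg.Agent.H162.GaussExc
open Cfsg.Agent.H928.Ore.Frame (NF LP)
open Cfsg.Agent.H777.Ore (IsC AllC I4 Inv4)
open Cfsg.Agent.H85.Ore (r7 J7 e7 tab7 rt7 exists_phi7 OneClass allC_of_blk inv4_of_blk)
open Cfsg.Agent.H482.Ore.Fix (Bk SimpB wt nf_block')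
open Cfsg.Agent.H224.Ore.Zeta Cfsg.Agent.H224.Ore.Tab Cfsg.Agent.H150.MF
open Polynomial

universe u v

variable {D : ChevalleyDatum} {l : ℕ} {M : CoxeterMatrix (Fin l)} (hp : IsType D l M)

/-- **No fixed points.** -/
theorem nf_all {K : Type u} {K' : Type v} [Field K] [Field K'] [Finite K'] {i : K →+* K'} {J : List (Fin l)} {n : ℕ}
    {r : Fin (n + 2) → Fin (n + 2) → ℕ} {j : Fin (n + 1) → Fin l}
    {φ : Matrix.SpecialLinearGroup (Fin (n + 2)) K →* ↥(D.group K)}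
    {φ' : Matrix.SpecialLinearGroup (Fin (n + 2)) K' →* ↥(D.group K')} {s : Fin (n + 2) → Fin (n + 2) → K}
    (B : Bk hp i {k | k ∈ J} n r j φ φ' s)
    (hW : ∀ q < D.nroots, (∃ k, k ∉ J ∧ vec D l q k ≠ 0) → Two (ex fun a => D.cartan (j a) q))
    {ν : K} {p : K[X]} {lam : Fin (n + 2) → K'} (H : Zet i (n + 1) ν p lam)
    {c : Matrix.SpecialLinearGroup (Fin (n + 2)) K}
    (hc : (c : Matrix (Fin (n + 2)) (Fin (n + 2)) K).charpoly = (X - C ν) * p) :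
    NF (VJ M.toCoxeterSystem hp.isCartan (XX D l K) {k | k ∈ J}) (φ c) ∧
      NF (VNJ M.toCoxeterSystem hp.isCartan (XX D l K) {k | k ∈ J}) (φ c) := by
  obtain ⟨ch, hch⟩ := CharP.exists K'
  have : Fact ch.Prime := ⟨(CharP.char_is_prime_or_zero K' ch).resolve_right (CharP.char_ne_zero_of_finite K' ch)⟩
  obtain ⟨g, hg⟩ := Cfsg.Agent.H934.MF.diag_map i (c : Matrix (Fin (n + 2)) (Fin (n + 2)) K) H.inj
    (by rw [hc, H.split])
  exact nf_block' hp ch B hg fun q hq hk => Two.ne H (hW q hq hk)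

/-- the block of `E₇` -/
theorem bk7 {K : Type u} {K' : Type v} [Field K] [Field K'] (i : K →+* K')
    {φ : Matrix.SpecialLinearGroup (Fin 7) K →* ↥(chevE7.group K)}
    {φ' : Matrix.SpecialLinearGroup (Fin 7) K' →* ↥(chevE7.group K')}
    (hφ : ∀ a b (hab : a ≠ b) c, φ (Matrix.SpecialLinearGroup.transvection hab c) =
        xc Cfsg.Agent.Nodes.KindE.isType7 (vec chevE7 7 (r7 a b)) (((-1 : ℤ) : K) * c))
    (hφ' : ∀ a b (hab : a ≠ b) c, φ' (Matrix.SpecialLinearGroup.transvection hab c) =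
        xc Cfsg.Agent.Nodes.KindE.isType7 (vec chevE7 7 (r7 a b)) (((-1 : ℤ) : K') * c)) :
    Bk Cfsg.Agent.Nodes.KindE.isType7 i {k | k ∈ J7} 5 r7 j7 φ φ' (fun _ _ => ((-1 : ℤ) : K)) where
  simp := ⟨fun a => simple7 a, fun a => by
    rw [rt7.2.2.2 _ _ (Fin.castSucc_lt_succ (i := a)).ne, simple7 a]⟩
  rlt := tab7.rlt
  rJ := tab7.rJ
  hφ := hφ
  hφ' a b hab c := by rw [hφ' a b hab c, map_intCast]
  ss a := by push_cast; ring

theorem exists_oneClass7 (K : Type u) [Field K] [Finite K] (hq : 3 ≤ Nat.card K)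
    {φ : Matrix.SpecialLinearGroup (Fin 7) K →* ↥(chevE7.group K)}
    (hφ : ∀ a b (hab : a ≠ b) c, φ (Matrix.SpecialLinearGroup.transvection hab c) =
        xc Cfsg.Agent.Nodes.KindE.isType7 (vec chevE7 7 (r7 a b)) (((-1 : ℤ) : K) * c)) :
    ∃ (ν : K) (p : K[X]) (c₀ : Matrix.SpecialLinearGroup (Fin 7) K), Irreducible p ∧ p.Monic ∧ p.natDegree = 6 ∧
      p.eval ν ≠ 0 ∧ (c₀ : Matrix (Fin 7) (Fin 7) K).charpoly = (X - C ν) * p ∧
      NiceM (c₀ : Matrix (Fin 7) (Fin 7) K) ∧ OneClass Cfsg.Agent.Nodes.KindE.isType7 K J7 φ c₀ := by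
  obtain ⟨K', _, _, i, ν, p, lam, H⟩ := exists_zet K hq (m := 6) (by norm_num)
  obtain ⟨φ', hφ'⟩ := exists_phi7 K'
  have B := bk7 i hφ hφ'
  obtain ⟨c₀, h1, h2, h3⟩ := mf_poly hq (n := 7) (by norm_num) H.monic H.deg H.c0 H.nu
  have key : ∀ g : Matrix.SpecialLinearGroup (Fin 7) K,
      ((g * c₀ * g⁻¹ : Matrix.SpecialLinearGroup (Fin 7) K) : Matrix (Fin 7) (Fin 7) K).charpoly = (X - C ν) * p := by
    intro g
    have e : ((g * c₀ * g⁻¹ : Matrix.SpecialLinearGroup (Fin 7) K) : Matrix (Fin 7) (Fin 7) K) =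
        (g : Matrix (Fin 7) (Fin 7) K) * c₀ * ((g⁻¹ : Matrix.SpecialLinearGroup (Fin 7) K) :
          Matrix (Fin 7) (Fin 7) K) := rfl
    rw [e, Matrix.mul_assoc, Matrix.charpoly_mul_comm, Matrix.mul_assoc]
    have e2 : ((g⁻¹ : Matrix.SpecialLinearGroup (Fin 7) K) : Matrix (Fin 7) (Fin 7) K) *
        (g : Matrix (Fin 7) (Fin 7) K) = 1 := by
      rw [← Matrix.SpecialLinearGroup.coe_mul, inv_mul_cancel, Matrix.SpecialLinearGroup.coe_one]
    rw [e2, Matrix.mul_one, h1]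
  have hdeg := H.deg
  refine ⟨ν, p, c₀, H.irr, H.monic, by omega, H.nu, h1, h2, ⟨h3, fun g => ?_, fun g => ?_⟩⟩
  · exact (nf_all _ B wt7 H (key g)).1
  · exact (nf_all _ B wt7 H (key g)).2

/-- **`E₇(q)`, `q ≥ 3`: every element is a commutator.** -/
theorem allC_E7 (K : Type u) [Field K] [Finite K] (hq : 3 ≤ Nat.card K) : AllC ↥(chevE7.group K) := by
  obtain ⟨φ, hφ⟩ := exists_phi7 K
  obtain ⟨-, -, c₀, -, -, -, -, -, -, h⟩ := exists_oneClass7 K hq hφ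
  have : Fintype K := Fintype.ofFinite K
  exact allC_of_blk Cfsg.Agent.Nodes.KindE.isType7 (by norm_num) (Cfsg.Agent.S1054.result chevE7 (by simp))
    Cfsg.Agent.Nodes.ChevChart.irr7 tab7 (s := fun _ _ => ((-1 : ℤ) : K)) (fun _ _ => by simp) hφ h

/-- **`E₇(q)`, `q ≥ 3`: products of four elements of square one**, given the reality of the block elements. -/
theorem inv4_E7_of (K : Type u) [Field K] [Finite K] (hq : 3 ≤ Nat.card K)
    (hreal : ∀ φ : Matrix.SpecialLinearGroup (Fin 7) K →* ↥(chevE7.group K),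
      (∀ a b (hab : a ≠ b) c, φ (Matrix.SpecialLinearGroup.transvection hab c) =
        xc Cfsg.Agent.Nodes.KindE.isType7 (vec chevE7 7 (r7 a b)) (((-1 : ℤ) : K) * c)) →
      ∀ (ν : K) (p : K[X]) (c₀ : Matrix.SpecialLinearGroup (Fin 7) K), Irreducible p → p.Monic → p.natDegree = 6 →
        p.eval ν ≠ 0 → (c₀ : Matrix (Fin 7) (Fin 7) K).charpoly = (X - C ν) * p →
        ∃ t : ↥(chevE7.group K), t * t = 1 ∧ t * φ c₀ * t⁻¹ = (φ c₀)⁻¹) : Inv4 ↥(chevE7.group K) := by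
  obtain ⟨φ, hφ⟩ := exists_phi7 K
  obtain ⟨ν, p, c₀, h1, h2, h3, h4, h5, -, h⟩ := exists_oneClass7 K hq hφ
  have : Fintype K := Fintype.ofFinite K
  exact inv4_of_blk Cfsg.Agent.Nodes.KindE.isType7 (by norm_num) (Cfsg.Agent.S1054.result chevE7 (by simp))
    Cfsg.Agent.Nodes.ChevChart.irr7 tab7 (s := fun _ _ => ((-1 : ℤ) : K)) (fun _ _ => by simp) hφ h
    (hreal φ hφ ν p c₀ h1 h2 h3 h4 h5)

end Cfsg.Agent.H224.Ore.ESeven
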